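import Cfsg.Agent.H939.L16.Def

/-!
# S5916 (helper942): a calculator for the bracket of `E₈` in characteristic two

Monomials are coded by natural numbers (`m + 1 = ∏ pᵉ`, the variable of the prime `p` is `x p`), polynomials modulo two
by sorted lists of monomials, vectors by lists of pairs (index of the root, polynomial).
-/

set_option autoImplicit false
set_option maxRecDepth 100000

namespace Cfsg.Agent.H942.L16

open Matrix Cfsg Cfsg.Lie
open Cfsg.Agent.H939.L64 (KK LK brK)
open Cfsg.Agent.H413.L16 (er hv hr tg br_rr br_neg br_hv br_comm brM nr rk8 er_of er_ge tg_le chain_mod cast_even cast_odd)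
open Cfsg.Agent.H939.L16
open Cfsg.Agent.H876.L64 (two_zero)
open Cfsg.Agent.ChevalleyStructure.Columns (car cor)

theorem beq_of {a b : ℕ} (h : a = b) : Nat.beq a b = true := by rw [Nat.beq_eq]; exact h

/-! ### monomials -/

/-- the value of the monomial `m` (coded by `m + 1 = ∏ pᵉ`) -/
noncomputable def mv (x : ℕ → KK) (m : ℕ) : KK := (m + 1).factorization.prod fun p e => x p ^ e

/-- the product of monomials -/
def mm (a b : ℕ) : ℕ := a * b + a + b

theorem mv_mm (x : ℕ → KK) (a b : ℕ) : mv x (mm a b) = mv x a * mv x b := by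
  unfold mv mm
  rw [show a * b + a + b + 1 = (a + 1) * (b + 1) by ring, Nat.factorization_mul (by omega) (by omega)]
  exact Finsupp.prod_add_index' (fun _ => pow_zero _) (fun _ _ _ => pow_add _ _ _)

theorem mv_prime (x : ℕ → KK) {p : ℕ} (hp : p.Prime) : mv x (p - 1) = x p := by
  unfold mv
  rw [Nat.sub_add_cancel hp.one_lt.le, hp.factorization]
  exact (Finsupp.prod_single_index (h := fun p e => x p ^ e) (pow_zero (x p))).trans (pow_one (x p))

/-- the power of a monomial -/
def mp (a n : ℕ) : ℕ := (a + 1) ^ n - 1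

theorem mv_mp (x : ℕ → KK) (a n : ℕ) : mv x (mp a n) = mv x a ^ n := by
  induction n with
  | zero =>
    unfold mv mp
    rw [pow_zero, pow_zero, Nat.sub_self, zero_add, Nat.factorization_one]
    rfl
  | succ n ih =>
    have h : mp a (n + 1) = mm (mp a n) a := by
      have h1 : 1 ≤ (a + 1) ^ n := Nat.one_le_pow _ _ (by omega)
      have h2 : (a + 1) ^ n * a + (a + 1) ^ n = (a + 1) ^ (n + 1) := by ring
      unfold mp mm
      obtain ⟨c, hc⟩ := Nat.exists_eq_add_of_le h1
      rw [← h2, hc]
      have : 1 + c - 1 = c := by omega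
      rw [this]
      have : (1 + c) * a + (1 + c) - 1 = c * a + c + a := by
        have : (1 + c) * a + (1 + c) = (c * a + c + a) + 1 := by ring
        omega
      rw [this]
    rw [h, mv_mm, ih, pow_succ]

/-! ### polynomials modulo two -/

theorem add_self (a : KK) : a + a = 0 := by rw [← two_mul, two_zero, zero_mul]

/-- the value of a polynomial -/
noncomputable def pv (x : ℕ → KK) (p : List ℕ) : KK := (p.map (mv x)).sum

theorem pv_nil (x : ℕ → KK) : pv x [] = 0 := rfl

theorem pv_cons (x : ℕ → KK) (a : ℕ) (p : List ℕ) : pv x (a :: p) = mv x a + pv x p := by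
  unfold pv; rw [List.map_cons, List.sum_cons]

theorem pv_append (x : ℕ → KK) (p q : List ℕ) : pv x (p ++ q) = pv x p + pv x q := by
  unfold pv; rw [List.map_append, List.sum_append]

/-- the sum of two sorted polynomials (with fuel) -/
def addF : ℕ → List ℕ → List ℕ → List ℕ
  | 0, p, q => p ++ q
  | _ + 1, [], q => q
  | _ + 1, a :: p, [] => a :: p
  | n + 1, a :: p, b :: q =>
    bif Nat.beq a b then addF n p q
    else bif Nat.ble a b then a :: addF n p (b :: q) else b :: addF n (a :: p) q

theorem pv_addF (x : ℕ → KK) : ∀ (n : ℕ) (p q : List ℕ), pv x (addF n p q) = pv x p + pv x q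
  | 0, p, q => pv_append x p q
  | n + 1, [], q => by rw [addF, pv_nil, zero_add]
  | n + 1, a :: p, [] => by rw [addF, pv_nil, add_zero]
  | n + 1, a :: p, b :: q => by
    rw [addF]
    cases h : Nat.beq a b
    · cases h2 : Nat.ble a b
      · rw [cond_false, cond_false, pv_cons, pv_addF x n, pv_cons x b]
        ring
      · rw [cond_false, cond_true, pv_cons, pv_addF x n, pv_cons x a]
        ring
    · rw [cond_true, pv_addF x n, Nat.eq_of_beq_eq_true h, pv_cons, pv_cons]
      have := add_self (mv x b)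
      linear_combination -this

/-- the sum -/
def addP (p q : List ℕ) : List ℕ := addF (p.length + q.length) p q

theorem pv_addP (x : ℕ → KK) (p q : List ℕ) : pv x (addP p q) = pv x p + pv x q := pv_addF x _ p q

theorem pv_map_mm (x : ℕ → KK) (a : ℕ) (q : List ℕ) : pv x (q.map (mm a)) = mv x a * pv x q := by
  induction q with
  | nil => rw [List.map_nil, pv_nil, mul_zero]
  | cons b q ih => rw [List.map_cons, pv_cons, pv_cons, ih, mv_mm, mul_add]

/-- the product -/
def mulP (p q : List ℕ) : List ℕ := p.foldr (fun a acc => addP (q.map (mm a)) acc) []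

theorem pv_mulP (x : ℕ → KK) (p q : List ℕ) : pv x (mulP p q) = pv x p * pv x q := by
  unfold mulP
  induction p with
  | nil => rw [List.foldr_nil, pv_nil, zero_mul]
  | cons a p ih => rw [List.foldr_cons, pv_addP, ih, pv_map_mm, pv_cons, add_mul]

/-- the square -/
def sqP (p : List ℕ) : List ℕ := p.map fun m => mm m m

theorem pv_sqP (x : ℕ → KK) (p : List ℕ) : pv x (sqP p) = pv x p ^ 2 := by
  unfold sqP
  induction p with
  | nil => rw [List.map_nil, pv_nil, zero_pow two_ne_zero]
  | cons a p ih =>
    rw [List.map_cons, pv_cons, ih, mv_mm, pv_cons]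
    linear_combination -(mv x a * pv x p) * two_zero

/-- the sum of a list of polynomials -/
def sumP (l : List (List ℕ)) : List ℕ := l.foldr addP []

theorem pv_sumP (x : ℕ → KK) (l : List (List ℕ)) : pv x (sumP l) = (l.map (pv x)).sum := by
  unfold sumP
  induction l with
  | nil => rfl
  | cons p l ih => rw [List.foldr_cons, pv_addP, ih, List.map_cons, List.sum_cons]

/-! ### vectors -/

/-- the value of a vector -/
noncomputable def sv (x : ℕ → KK) (v : List (ℕ × List ℕ)) : LK := (v.map fun e => pv x e.2 • er e.1).sum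

theorem sv_nil (x : ℕ → KK) : sv x [] = 0 := rfl

theorem sv_cons (x : ℕ → KK) (e : ℕ × List ℕ) (v : List (ℕ × List ℕ)) :
    sv x (e :: v) = pv x e.2 • er e.1 + sv x v := by
  unfold sv; rw [List.map_cons, List.sum_cons]

theorem sv_append (x : ℕ → KK) (u v : List (ℕ × List ℕ)) : sv x (u ++ v) = sv x u + sv x v := by
  unfold sv; rw [List.map_append, List.sum_append]

/-- insertion -/
def insS (r : ℕ) (p : List ℕ) : List (ℕ × List ℕ) → List (ℕ × List ℕ)
  | [] => [(r, p)]
  | e :: v => bif Nat.beq r e.1 then (r, addP p e.2) :: v else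
      bif Nat.ble r e.1 then (r, p) :: e :: v else e :: insS r p v

theorem sv_insS (x : ℕ → KK) (r : ℕ) (p : List ℕ) (v : List (ℕ × List ℕ)) :
    sv x (insS r p v) = pv x p • er r + sv x v := by
  induction v with
  | nil => rw [insS, sv_cons]
  | cons e v ih =>
    rw [insS]
    cases h : Nat.beq r e.1
    · cases h2 : Nat.ble r e.1
      · rw [cond_false, cond_false, sv_cons, ih, sv_cons]
        abel
      · rw [cond_false, cond_true, sv_cons]
    · rw [cond_true, sv_cons, sv_cons, pv_addP, Nat.eq_of_beq_eq_true h, add_smul, add_assoc]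

/-- the normal form -/
def nfS (v : List (ℕ × List ℕ)) : List (ℕ × List ℕ) :=
  v.foldr (fun e acc => bif Nat.ble 240 e.1 then acc else insS e.1 e.2 acc) []

theorem sv_nfS (x : ℕ → KK) (v : List (ℕ × List ℕ)) : sv x (nfS v) = sv x v := by
  unfold nfS
  induction v with
  | nil => rfl
  | cons e v ih =>
    rw [List.foldr_cons]
    cases h : Nat.ble 240 e.1
    · rw [cond_false, sv_insS, ih, sv_cons]
    · rw [cond_true, ih, sv_cons, er_ge (Nat.le_of_ble_eq_true h), smul_zero, zero_add]

/-- the bracket -/
def brS (u v : List (ℕ × List ℕ)) : List (ℕ × List ℕ) :=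
  nfS (u.flatMap fun e => v.map fun f => (tg e.1 f.1, mulP e.2 f.2))

/-- all indices are indices of roots, there are no opposite roots -/
def okB (u v : List (ℕ × List ℕ)) : Bool :=
  u.all fun e => Nat.ble (e.1 + 1) 240 && v.all fun f => Nat.ble (f.1 + 1) 240 && !(Nat.beq (e.1 + f.1) 239)

theorem brK_add_left (u v w : LK) : brK (u + v) w = brK u w + brK v w := Cfsg.Agent.H971.RV.br_add_left u v w

theorem brK_add_right (u v w : LK) : brK u (v + w) = brK u v + brK u w := Cfsg.Agent.H971.RV.br_add_right u v w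

theorem brK_smul_left (c : KK) (v w : LK) : brK (c • v) w = c • brK v w := Cfsg.Agent.H971.RV.br_smul_left c v w

theorem brK_smul_right (c : KK) (v w : LK) : brK v (c • w) = c • brK v w := Cfsg.Agent.H971.RV.br_smul_right c v w

theorem brK_zero_left (w : LK) : brK 0 w = 0 := by
  have := brK_smul_left 0 0 w
  rwa [zero_smul, zero_smul] at this

theorem brK_zero_right (w : LK) : brK w 0 = 0 := by
  have := brK_smul_right 0 w 0
  rwa [zero_smul, zero_smul] at this

theorem sv_brS (x : ℕ → KK) (u v : List (ℕ × List ℕ)) (h : okB u v = true) :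
    brK (sv x u) (sv x v) = sv x (brS u v) := by
  unfold brS
  rw [sv_nfS]
  induction u with
  | nil => exact brK_zero_left _
  | cons e u ih =>
    unfold okB at h
    rw [List.all_cons, Bool.and_eq_true, Bool.and_eq_true] at h
    obtain ⟨⟨h1, h2⟩, h3⟩ := h
    rw [List.flatMap_cons, sv_append, sv_cons, brK_add_left, ih h3, brK_smul_left]
    congr 1
    have he : e.1 < 240 := Nat.le_of_ble_eq_true h1
    clear ih h3 h1
    induction v with
    | nil => rw [List.map_nil, sv_nil, brK_zero_right, smul_zero]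
    | cons f v ih =>
      rw [List.all_cons, Bool.and_eq_true, Bool.and_eq_true] at h2
      obtain ⟨⟨h4, h5⟩, h6⟩ := h2
      have hf : f.1 < 240 := Nat.le_of_ble_eq_true h4
      have hn : f.1 ≠ 239 - e.1 := by
        intro h7
        rw [Bool.not_eq_true', show Nat.beq (e.1 + f.1) 239 = true from by
          rw [h7]; exact beq_of (by omega)] at h5
        cases h5
      rw [List.map_cons, sv_cons, sv_cons, brK_add_right, smul_add, ih h6, brK_smul_right, br_rr he hf hn]
      show _ = pv x (mulP e.2 f.2) • er (tg e.1 f.1) + _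
      rw [pv_mulP, mul_smul]

/-! ### the operators -/

/-- the Frobenius map -/
def frS (v : List (ℕ × List ℕ)) : List (ℕ × List ℕ) := v.map fun e => (wi e.1, sqP e.2)

/-- all indices are indices of roots -/
def okI (v : List (ℕ × List ℕ)) : Bool := v.all fun e => Nat.ble (e.1 + 1) 240

theorem sv_frS {Fp : LK → LK} {ta : LK →ₗ[KK] LK} (O : Ops Fp ta) (x : ℕ → KK) (v : List (ℕ × List ℕ))
    (h : okI v = true) : Fp (sv x v) = sv x (frS v) := by
  unfold frS
  induction v with
  | nil =>
    rw [List.map_nil, sv_nil]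
    have := O.smul 0 0
    rwa [zero_pow two_ne_zero, zero_smul, zero_smul] at this
  | cons e v ih =>
    unfold okI at h
    rw [List.all_cons, Bool.and_eq_true] at h
    have he : e.1 < 240 := Nat.le_of_ble_eq_true h.1
    rw [List.map_cons, sv_cons, sv_cons, O.add, O.smul, O.er _ he, ih h.2, pv_sqP]

/-- `ta` -/
def taS (v : List (ℕ × List ℕ)) : List (ℕ × List ℕ) := v.map fun e => (wi (wi (wi (wi e.1))), e.2)

theorem sv_taS {Fp : LK → LK} {ta : LK →ₗ[KK] LK} (O : Ops Fp ta) (x : ℕ → KK) (v : List (ℕ × List ℕ))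
    (h : okI v = true) : ta (sv x v) = sv x (taS v) := by
  unfold taS
  induction v with
  | nil => rw [List.map_nil, sv_nil, map_zero]
  | cons e v ih =>
    unfold okI at h
    rw [List.all_cons, Bool.and_eq_true] at h
    have he : e.1 < 240 := Nat.le_of_ble_eq_true h.1
    rw [List.map_cons, sv_cons, sv_cons, map_add, map_smul, O.ter _ he, ih h.2]

/-- `x_r(1)` -/
def xlS (r : ℕ) (v : List (ℕ × List ℕ)) : List (ℕ × List ℕ) := nfS (v ++ v.map fun e => (tg r e.1, e.2))

/-- all indices are indices of roots, different from `-r` -/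
def okX (r : ℕ) (v : List (ℕ × List ℕ)) : Bool :=
  v.all fun e => Nat.ble (e.1 + 1) 240 && !(Nat.beq (r + e.1) 239)

theorem er_inr {s t : ℕ} (ht : t < chevE8.nroots) : er s (Sum.inr ⟨t, ht⟩) = if s = t then 1 else 0 := by
  by_cases h : s < chevE8.nroots
  · rw [er_of h]
    split_ifs with h1
    · subst h1; exact Pi.single_eq_same _ _
    · exact Pi.single_eq_of_ne (fun h2 => h1 (congrArg Fin.val (Sum.inr.inj h2)).symm) _
  · have : s ≠ t := fun h1 => h (h1 ▸ ht)
    rw [er_ge (by rw [nr] at h; omega), if_neg this]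
    rfl

theorem sv_xlS (x : ℕ → KK) {r : ℕ} (hr : r < chevE8.nroots) (v : List (ℕ × List ℕ)) (h : okX r v = true) :
    xl ⟨r, hr⟩ 1 (sv x v) = sv x (xlS r v) := by
  have hr' : r < 240 := by rw [← nr]; exact hr
  have h1 : sv x v (Sum.inr (Fin.rev ⟨r, hr⟩)) = 0 := by
    have h2 : (Fin.rev ⟨r, hr⟩ : Fin chevE8.nroots) = ⟨239 - r, by rw [nr]; omega⟩ := by
      apply Fin.ext
      rw [Fin.val_rev]
      show chevE8.nroots - (r + 1) = 239 - r
      rw [nr]; omega
    rw [h2]
    clear h2
    induction v with
    | nil => rfl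
    | cons e v ih =>
      unfold okX at h
      rw [List.all_cons, Bool.and_eq_true, Bool.and_eq_true] at h
      obtain ⟨⟨h3, h4⟩, h5⟩ := h
      rw [sv_cons, Pi.add_apply, Pi.smul_apply, ih h5, er_inr, if_neg, smul_zero, add_zero]
      intro h6
      rw [Bool.not_eq_true', show Nat.beq (r + e.1) 239 = true from by
          rw [h6]; exact beq_of (by omega)] at h4
      cases h4
  unfold xl xlS
  rw [h1, mul_zero, zero_smul, add_zero, one_smul, sv_nfS, sv_append]
  congr 1
  clear h1
  induction v with
  | nil => rw [List.map_nil, sv_nil, brK_zero_right]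
  | cons e v ih =>
    unfold okX at h
    rw [List.all_cons, Bool.and_eq_true, Bool.and_eq_true] at h
    obtain ⟨⟨h3, h4⟩, h5⟩ := h
    have he : e.1 < 240 := Nat.le_of_ble_eq_true h3
    have hn : e.1 ≠ 239 - r := by
      intro h6
      rw [Bool.not_eq_true', show Nat.beq (r + e.1) 239 = true from by
          rw [h6]; exact beq_of (by omega)] at h4
      cases h4
    rw [List.map_cons, sv_cons, sv_cons, brK_add_right, ih h5, brK_smul_right, br_rr hr' he hn]

/-- `T` -/
def TS (v : List (ℕ × List ℕ)) : List (ℕ × List ℕ) := xlS 121 (xlS 126 (xlS 141 (xlS 135 (taS v))))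

/-- the conditions of `TS` -/
def okT (v : List (ℕ × List ℕ)) : Bool :=
  okI v && okX 135 (taS v) && okX 141 (xlS 135 (taS v)) && okX 126 (xlS 141 (xlS 135 (taS v))) &&
    okX 121 (xlS 126 (xlS 141 (xlS 135 (taS v))))

theorem sv_TS {Fp : LK → LK} {ta : LK →ₗ[KK] LK} (O : Ops Fp ta) (x : ℕ → KK) (v : List (ℕ × List ℕ))
    (h : okT v = true) : iz (ta (sv x v)) = sv x (TS v) := by
  unfold okT at h
  simp only [Bool.and_eq_true] at h
  obtain ⟨⟨⟨⟨h1, h2⟩, h3⟩, h4⟩, h5⟩ := h
  unfold iz TS
  rw [sv_taS O x v h1, sv_xlS x _ _ h2, sv_xlS x _ _ h3, sv_xlS x _ _ h4, sv_xlS x _ _ h5]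

/-! ### coordinates of a bracket -/

/-- the coordinate at the root `t` of `[u, v]` -/
def cR (t : ℕ) (u v : List (ℕ × List ℕ)) : List ℕ :=
  u.foldr (fun e acc => addP (v.foldr (fun f acc => bif Nat.beq (tg e.1 f.1) t then addP (mulP e.2 f.2) acc else acc) [])
    acc) []

theorem pv_cR (x : ℕ → KK) {t : ℕ} (ht : t < chevE8.nroots) (u v : List (ℕ × List ℕ)) (hu : okI u = true)
    (hv : okI v = true) : brK (sv x u) (sv x v) (Sum.inr ⟨t, ht⟩) = pv x (cR t u v) := by
  have ht' : t < 240 := by rw [← nr]; exact ht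
  unfold cR
  induction u with
  | nil => rw [sv_nil, brK_zero_left]; rfl
  | cons e u ih =>
    unfold okI at hu
    rw [List.all_cons, Bool.and_eq_true] at hu
    have he : e.1 < 240 := Nat.le_of_ble_eq_true hu.1
    rw [List.foldr_cons, pv_addP, ← ih hu.2, sv_cons, brK_add_left, Pi.add_apply]
    congr 1
    clear ih
    induction v with
    | nil => rw [sv_nil, brK_zero_right]; rfl
    | cons f v ih =>
      unfold okI at hv
      rw [List.all_cons, Bool.and_eq_true] at hv
      have hf : f.1 < 240 := Nat.le_of_ble_eq_true hv.1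
      have key : brK (er e.1) (er f.1) (Sum.inr ⟨t, ht⟩) = if tg e.1 f.1 = t then 1 else 0 := by
        by_cases hn : f.1 = 239 - e.1
        · rw [hn, br_neg he, if_neg]
          · rfl
          · intro h1
            exact (((chain_mod (s := 239 - e.1) (u := 0) he).2.1) (by omega)).2.1 rfl
        · rw [br_rr he hf hn, er_inr]
      rw [List.foldr_cons, sv_cons, brK_add_right, Pi.add_apply, ih hv.2, brK_smul_left, brK_smul_right, Pi.smul_apply,
        Pi.smul_apply, key]
      cases h : Nat.beq (tg e.1 f.1) t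
      · rw [cond_false, if_neg (Nat.ne_of_beq_eq_false h), smul_zero, smul_zero, zero_add]
      · rw [cond_true, if_pos (Nat.eq_of_beq_eq_true h), pv_addP, pv_mulP, smul_eq_mul, smul_eq_mul, mul_one]

/-- the coordinate `K` in the Cartan subalgebra of `[u, v]` -/
def cH (K : ℕ) (u v : List (ℕ × List ℕ)) : List ℕ :=
  u.foldr (fun e acc => addP (v.foldr (fun f acc => bif Nat.beq (e.1 + f.1) 239 && decide (cor chevE8 e.1 K % 2 ≠ 0) then
    addP (mulP e.2 f.2) acc else acc) []) acc) []

theorem pv_cH (x : ℕ → KK) {K : ℕ} (hK : K < chevE8.rank) (u v : List (ℕ × List ℕ)) (hu : okI u = true)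
    (hv : okI v = true) : brK (sv x u) (sv x v) (Sum.inl ⟨K, hK⟩) = pv x (cH K u v) := by
  unfold cH
  induction u with
  | nil => rw [sv_nil, brK_zero_left]; rfl
  | cons e u ih =>
    unfold okI at hu
    rw [List.all_cons, Bool.and_eq_true] at hu
    have he : e.1 < 240 := Nat.le_of_ble_eq_true hu.1
    rw [List.foldr_cons, pv_addP, ← ih hu.2, sv_cons, brK_add_left, Pi.add_apply]
    congr 1
    clear ih
    induction v with
    | nil => rw [sv_nil, brK_zero_right]; rfl
    | cons f v ih =>
      unfold okI at hv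
      rw [List.all_cons, Bool.and_eq_true] at hv
      have hf : f.1 < 240 := Nat.le_of_ble_eq_true hv.1
      have key : brK (er e.1) (er f.1) (Sum.inl ⟨K, hK⟩) =
          if (Nat.beq (e.1 + f.1) 239 && decide (cor chevE8 e.1 K % 2 ≠ 0)) = true then 1 else 0 := by
        by_cases hn : f.1 = 239 - e.1
        · have h1 : Nat.beq (e.1 + f.1) 239 = true := beq_of (by omega)
          rw [h1, Bool.true_and, hn, br_neg he]
          show ((cor chevE8 e.1 K : ℤ) : KK) = _
          by_cases h2 : cor chevE8 e.1 K % 2 ≠ 0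
          · rw [decide_eq_true h2, if_pos rfl, cast_odd h2]
          · rw [decide_eq_false h2, if_neg (by decide), cast_even (not_not.1 h2)]
        · have h1 : ¬ (Nat.beq (e.1 + f.1) 239 && decide (cor chevE8 e.1 K % 2 ≠ 0)) = true := by
            rw [Bool.and_eq_true]
            rintro ⟨h2, -⟩
            have := Nat.eq_of_beq_eq_true h2
            omega
          rw [br_rr he hf hn, if_neg h1]
          unfold er
          split_ifs with h3
          · exact Pi.single_eq_of_ne (by simp) _
          · rfl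
      rw [List.foldr_cons, sv_cons, brK_add_right, Pi.add_apply, ih hv.2, brK_smul_left, brK_smul_right, Pi.smul_apply,
        Pi.smul_apply, key]
      cases h : (Nat.beq (e.1 + f.1) 239 && decide (cor chevE8 e.1 K % 2 ≠ 0))
      · rw [cond_false, if_neg (by decide), smul_zero, smul_zero, zero_add]
      · rw [cond_true, if_pos rfl, pv_addP, pv_mulP, smul_eq_mul, smul_eq_mul, mul_one]

end Cfsg.Agent.H942.L16
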